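import Cfsg.Agent.H471.Eight.CertFi22
import Cfsg.Agent.H289.Eight.FiQDeg
import Cfsg.Agent.H713.Spor.Fi22
import Cfsg.Agent.H334.DS.Degs

/-!
# `Fi₂₂` has at least eight character degrees (helper289, for S4899)

Columns: elements of orders 13 (self-centralizing) and 11 (centralizer of order 22); degrees 429, 3080 (rank 3 action on
3510 points), 13650, 45045 (action on 61776 points). The certificate is helper471's.
-/

set_option autoImplicit false

namespace Cfsg.Agent.H289.Eight.Fi22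

open Cfsg Cfsg.Agent.Characters.Core Cfsg.Agent.H664.Eight

universe u

theorem mem_of_hasDeg {K : Type*} [Group K] {m : ℕ} (h : H334.DS.HasDeg K m) : m ∈ charDegrees K := by
  obtain ⟨ψ, hψ, h1⟩ := h
  exact ⟨⟨ψ, hψ⟩, Blocks.Basic.charDegree_of_eq h1⟩

theorem eight_fi22' : Eight Cfsg.Spor.Fi22 := by
  have hI : Cfsg.Spor.IsoFi22 Cfsg.Spor.Fi22 := ⟨MulEquiv.refl _⟩
  have hfin : Finite Cfsg.Spor.Fi22 := FiQDeg.finite_fi22
  have hsim : IsSimpleGroup Cfsg.Spor.Fi22 := Cfsg.Agent.R01.Fi22Facts.isSimple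
  have ex : ∀ p : ℕ, p.Prime → p ∣ 64561751654400 → ∃ x : Cfsg.Spor.Fi22, orderOf x = p := by
    intro p hp hd
    have := Fact.mk hp
    exact exists_prime_orderOf_dvd_card' (G := Cfsg.Spor.Fi22) p (by rw [FiQDeg.card_fi22]; exact hd)
  refine H471.Eight.CertFi22.eight FiQDeg.card_fi22 ?_ ?_
  · intro pk hpk
    simp only [List.mem_cons, List.not_mem_nil, or_false] at hpk
    rcases hpk with rfl | rfl
    · obtain ⟨x, hx⟩ := ex 13 (by norm_num) (by norm_num)
      exact ⟨x, hx, (H713.Spor.Fi22.cent_13 (MulEquiv.refl _) hx).trans (by norm_num)⟩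
    · obtain ⟨x, hx⟩ := ex 11 (by norm_num) (by norm_num)
      exact ⟨x, hx, (H713.Spor.Fi22.cent_11 (MulEquiv.refl _) hx).trans (by norm_num)⟩
  · intro d hd
    simp only [List.mem_cons, List.not_mem_nil, or_false] at hd
    rcases hd with rfl | rfl | rfl | rfl
    · exact mem_of_hasDeg (H334.DS.fi22 hI).1
    · exact mem_of_hasDeg (H334.DS.fi22 hI).2
    · exact FiQDeg.deg_13650
    · exact FiQDeg.deg_45045

/-- **`Fi₂₂`.** -/
theorem eight_fi22 {S : Type u} [Group S] (h : Spor.IsoFi22 S) : Eight S := by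
  obtain ⟨e⟩ := h
  exact Eight.of_equiv e eight_fi22'

end Cfsg.Agent.H289.Eight.Fi22
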