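import Mathlib

/-!
# Arithmetic of the degrees of `PSL_n(q)` (helper289, S4899)
-/

set_option autoImplicit false

namespace Cfsg.Agent.H289.Eight.Num

theorem core1 {q Y t s : ℕ} (ht : 0 < t) (htq : t ≤ q - 1) (hY : q ^ 2 - 1 ≤ Y)
    (h : (q * Y + (q - 1)) * t = Y * s) : False := by
  obtain ⟨a, rfl⟩ : ∃ a, q = a + 1 := ⟨q - 1, by omega⟩
  rw [Nat.add_sub_cancel] at h htq
  have e1 : (a + 1) ^ 2 - 1 = a * a + 2 * a := by
    have : (a + 1) ^ 2 = a * a + 2 * a + 1 := by ring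
    omega
  rw [e1] at hY
  have h1 : Y ∣ a * t := by
    have h2 : Y ∣ ((a + 1) * Y + a) * t := ⟨s, h⟩
    have h3 : ((a + 1) * Y + a) * t = Y * ((a + 1) * t) + a * t := by ring
    rw [h3] at h2
    exact (Nat.dvd_add_right ⟨_, rfl⟩).1 h2
  have h2 := Nat.le_of_dvd (Nat.mul_pos (by omega) ht) h1
  have h3 : a * t ≤ a * a := Nat.mul_le_mul_left a htq
  omega

theorem pow_succ_sub {q m : ℕ} (hq : 1 ≤ q) : q ^ (m + 1) - 1 = q * (q ^ m - 1) + (q - 1) := by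
  have h1 : 1 ≤ q ^ m := Nat.one_le_pow _ _ hq
  obtain ⟨y, hy⟩ : ∃ y, q ^ m = y + 1 := ⟨q ^ m - 1, by omega⟩
  obtain ⟨a, rfl⟩ : ∃ a, q = a + 1 := ⟨q - 1, by omega⟩
  rw [pow_succ, hy, Nat.add_sub_cancel, Nat.add_sub_cancel]
  have : (y + 1) * (a + 1) = (a + 1) * y + a + 1 := by ring
  omega

theorem sq_sub_le {q m : ℕ} (hq : 1 ≤ q) (hm : 2 ≤ m) : q ^ 2 - 1 ≤ q ^ m - 1 :=
  Nat.sub_le_sub_right (Nat.pow_le_pow_right hq hm) 1

/-- `A ≠ B` -/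
theorem ab {q m P x t s : ℕ} (hq : 2 ≤ q) (hm : 2 ≤ m) (hP : 0 < P) (ht : 0 < t) (htq : t ≤ q - 1)
    (h1 : x * t = P * (q ^ m - 1)) (h2 : x * s * (q - 1) = (q ^ (m + 1) - 1) * P) : False := by
  refine core1 (q := q) (Y := q ^ m - 1) (t := t) (s := s * (q - 1)) ht htq (sq_sub_le (by omega) hm) ?_
  rw [← pow_succ_sub (by omega)]
  apply Nat.eq_of_mul_eq_mul_right hP
  calc (q ^ (m + 1) - 1) * t * P = (q ^ (m + 1) - 1) * P * t := by ring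
    _ = x * s * (q - 1) * t := by rw [← h2]
    _ = x * t * (s * (q - 1)) := by ring
    _ = P * (q ^ m - 1) * (s * (q - 1)) := by rw [h1]
    _ = _ := by ring

/-- `B ≠ C` -/
theorem bc {q m P N x t s : ℕ} (hq : 2 ≤ q) (hm : 2 ≤ m) (hP : 0 < P) (hN : 0 < N) (ht : 0 < t) (htq : t ≤ q - 1)
    (h1 : x * t * (q - 1) = N * (P * (q ^ m - 1)))
    (h2 : x * s * ((q ^ 2 - 1) * (q - 1)) = N * (q ^ (m + 1) - 1) * P) : False := by
  refine core1 (q := q) (Y := q ^ m - 1) (t := t) (s := s * (q ^ 2 - 1)) ht htq (sq_sub_le (by omega) hm) ?_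
  rw [← pow_succ_sub (by omega)]
  apply Nat.eq_of_mul_eq_mul_right (Nat.mul_pos hN hP)
  calc (q ^ (m + 1) - 1) * t * (N * P) = N * (q ^ (m + 1) - 1) * P * t := by ring
    _ = x * s * ((q ^ 2 - 1) * (q - 1)) * t := by rw [← h2]
    _ = x * t * (q - 1) * (s * (q ^ 2 - 1)) := by ring
    _ = N * (P * (q ^ m - 1)) * (s * (q ^ 2 - 1)) := by rw [h1]
    _ = _ := by ring

/-- `A ≠ C`, the integer equation -/
theorem ac_int {q w t s : ℤ} (hq : 2 ≤ q) (ht : 0 < t) (htq : t < q) (hs : 0 < s) (hsq : s < q)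
    (h : (q ^ 2 * w - 1) * ((q ^ 2 - 1) * (q - 1)) * s = (q ^ 4 * w - 1) * t) : False := by
  have h1 : q * ((q ^ 4 * w - q ^ 3 * w - q ^ 2 * w + q * w - q ^ 2 + q + 1) * s - q ^ 3 * w * t) = s - t := by
    linear_combination h
  have h2 : s - t = 0 := by
    apply Int.eq_zero_of_abs_lt_dvd (m := q) ⟨_, h1.symm⟩
    rw [abs_lt]
    constructor <;> omega
  have h3 : s = t := by omega
  subst h3
  have h4 : q * ((q ^ 4 * w - q ^ 3 * w - q ^ 2 * w + q * w - q ^ 2 + q + 1) - q ^ 3 * w) * s = 0 := by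
    linear_combination h1
  have h5 : q ^ 4 * w - q ^ 3 * w - q ^ 2 * w + q * w - q ^ 2 + q + 1 - q ^ 3 * w = 0 := by
    rcases mul_eq_zero.1 h4 with h6 | h6
    · rcases mul_eq_zero.1 h6 with h7 | h7
      · omega
      · exact h7
    · omega
  have h6 : q ∣ 1 := ⟨-(q ^ 3 * w - q ^ 2 * w - q * w + w - q + 1 - q ^ 2 * w), by linear_combination h5⟩
  have := Int.le_of_dvd (by norm_num) h6
  omega

/-- `A ≠ C` -/
theorem ac {q m P x t s : ℕ} (hq : 2 ≤ q) (hm : 2 ≤ m) (hP : 0 < P) (ht : 0 < t) (htq : t ≤ q - 1) (hs : 0 < s)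
    (hsq : s ≤ q - 1)
    (h1 : x * t = P * (q ^ m - 1) * (q ^ (m + 1) - 1))
    (h2 : x * s * ((q ^ 2 - 1) * (q - 1)) = (q ^ (m + 2) - 1) * (q ^ (m + 1) - 1) * P) : False := by
  have hpos : 0 < q ^ (m + 1) - 1 := by
    have := Nat.one_lt_pow (show m + 1 ≠ 0 by omega) (show 1 < q by omega)
    omega
  have h3 : (q ^ m - 1) * ((q ^ 2 - 1) * (q - 1)) * s = (q ^ (m + 2) - 1) * t := by
    apply Nat.eq_of_mul_eq_mul_right (Nat.mul_pos hpos hP)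
    calc (q ^ m - 1) * ((q ^ 2 - 1) * (q - 1)) * s * ((q ^ (m + 1) - 1) * P) =
        P * (q ^ m - 1) * (q ^ (m + 1) - 1) * (s * ((q ^ 2 - 1) * (q - 1))) := by ring
      _ = x * t * (s * ((q ^ 2 - 1) * (q - 1))) := by rw [← h1]
      _ = x * s * ((q ^ 2 - 1) * (q - 1)) * t := by ring
      _ = (q ^ (m + 2) - 1) * (q ^ (m + 1) - 1) * P * t := by rw [h2]
      _ = _ := by ring
  obtain ⟨k, rfl⟩ : ∃ k, m = k + 2 := ⟨m - 2, by omega⟩
  have p1 : 1 ≤ q ^ (k + 2) := Nat.one_le_pow _ _ (by omega)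
  have p2 : 1 ≤ q ^ (k + 2 + 2) := Nat.one_le_pow _ _ (by omega)
  have p3 : 1 ≤ q ^ 2 := Nat.one_le_pow _ _ (by omega)
  have h4 := congrArg (fun z : ℕ => (z : ℤ)) h3
  simp only [Nat.cast_mul] at h4
  rw [Nat.cast_sub p1, Nat.cast_sub p2, Nat.cast_sub p3, Nat.cast_sub (show 1 ≤ q by omega)] at h4
  push_cast at h4
  refine ac_int (q := (q : ℤ)) (w := (q : ℤ) ^ k) (t := t) (s := s) (by omega) (by omega) (by omega) (by omega)
    (by omega) ?_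
  linear_combination h4

/-- `1 ≠ A` -/
theorem one_a {q m P t : ℕ} (hq : 2 ≤ q) (hm : 2 ≤ m) (hP : 0 < P) (htq : t ≤ q - 1)
    (h1 : 1 * t = P * (q ^ m - 1)) : False := by
  have h2 := sq_sub_le (q := q) (by omega) hm
  have h3 : 1 * (q ^ m - 1) ≤ P * (q ^ m - 1) := Nat.mul_le_mul_right _ hP
  have h4 : q - 1 < q ^ 2 - 1 := by
    have : q < q ^ 2 := by nlinarith
    omega
  omega

/-- `1 ≠ B` -/
theorem one_b {q N P t : ℕ} (hq : 2 ≤ q) (hN : q ^ 4 - 1 ≤ N) (hP : 0 < P) (htq : t ≤ q - 1)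
    (h1 : 1 * t * (q - 1) = N * P) : False := by
  have h3 : N * 1 ≤ N * P := Nat.mul_le_mul_left _ hP
  have h4 : t * (q - 1) ≤ (q - 1) * (q - 1) := Nat.mul_le_mul_right _ htq
  have h5 : (q - 1) * (q - 1) < q ^ 4 - 1 := by
    obtain ⟨a, rfl⟩ : ∃ a, q = a + 1 := ⟨q - 1, by omega⟩
    rw [Nat.add_sub_cancel]
    have h6 : (a + 1) ^ 4 = a * a + (a ^ 4 + 4 * a ^ 3 + 5 * a ^ 2 + 4 * a) + 1 := by ring
    have h7 : 0 < a := by omega
    have h8 : 0 < a ^ 4 + 4 * a ^ 3 + 5 * a ^ 2 + 4 * a := by positivity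
    omega
  rw [one_mul] at h1
  omega

/-- `1 ≠ C` -/
theorem one_c {q N N' P t : ℕ} (hq : 2 ≤ q) (hN : q ^ 4 - 1 ≤ N) (hN' : q ^ 2 - 1 ≤ N') (hP : 0 < P) (htq : t ≤ q - 1)
    (h1 : 1 * t * ((q ^ 2 - 1) * (q - 1)) = N * N' * P) : False := by
  obtain ⟨a, rfl⟩ : ∃ a, q = a + 1 := ⟨q - 1, by omega⟩
  have ha : 0 < a := by omega
  have e2 : (a + 1) ^ 2 - 1 = a * (a + 2) := by
    have : (a + 1) ^ 2 = a * (a + 2) + 1 := by ring
    omega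
  have e4 : (a + 1) ^ 4 - 1 = a * (a + 2) * ((a + 1) ^ 2 + 1) := by
    have : (a + 1) ^ 4 = a * (a + 2) * ((a + 1) ^ 2 + 1) + 1 := by ring
    omega
  rw [e4] at hN
  rw [e2] at hN' h1
  rw [Nat.add_sub_cancel] at htq h1
  have h3 : N * N' * 1 ≤ N * N' * P := Nat.mul_le_mul_left _ hP
  have h4 : a * (a + 2) * ((a + 1) ^ 2 + 1) * (a * (a + 2)) ≤ N * N' := Nat.mul_le_mul hN hN'
  have h5 : 1 * t * (a * (a + 2) * a) ≤ a * (a * (a + 2) * a) := by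
    rw [one_mul]; exact Nat.mul_le_mul_right _ htq
  have h6 : a * (a + 2) * ((a + 1) ^ 2 + 1) * (a * (a + 2)) =
      a * (a * (a + 2) * a) + (a ^ 6 + 6 * a ^ 5 + 13 * a ^ 4 + 14 * a ^ 3 + 6 * a ^ 2 + 2 * a ^ 2) + (0) := by ring
  have h8 : 0 < (a ^ 6 + 6 * a ^ 5 + 13 * a ^ 4 + 14 * a ^ 3 + 6 * a ^ 2 + 2 * a ^ 2) := by positivity
  omega

/-- `T ≠ C'` -/
theorem tc {q N N' P x t : ℕ} (hq : 2 ≤ q) (hN : q ^ 4 - 1 ≤ N) (hN' : 0 < N') (hP : 0 < P) (htq : t ≤ q - 1)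
    (h1 : x * (q - 1) = q * N') (h2 : x * t * ((q ^ 2 - 1) * (q - 1)) = N * N' * (P * q)) : False := by
  have h3 : t * (q ^ 2 - 1) = N * P := by
    apply Nat.eq_of_mul_eq_mul_right (Nat.mul_pos hN' (show 0 < q by omega))
    calc t * (q ^ 2 - 1) * (N' * q) = q * N' * (t * (q ^ 2 - 1)) := by ring
      _ = x * (q - 1) * (t * (q ^ 2 - 1)) := by rw [← h1]
      _ = x * t * ((q ^ 2 - 1) * (q - 1)) := by ring
      _ = N * N' * (P * q) := by rw [h2]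
      _ = _ := by ring
  obtain ⟨a, rfl⟩ : ∃ a, q = a + 1 := ⟨q - 1, by omega⟩
  have ha : 0 < a := by omega
  have e2 : (a + 1) ^ 2 - 1 = a * (a + 2) := by
    have : (a + 1) ^ 2 = a * (a + 2) + 1 := by ring
    omega
  have e4 : (a + 1) ^ 4 - 1 = a * (a + 2) * ((a + 1) ^ 2 + 1) := by
    have : (a + 1) ^ 4 = a * (a + 2) * ((a + 1) ^ 2 + 1) + 1 := by ring
    omega
  rw [e4] at hN
  rw [e2] at h3
  rw [Nat.add_sub_cancel] at htq
  have h5 : t * (a * (a + 2)) ≤ a * (a * (a + 2)) := Nat.mul_le_mul_right _ htq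
  have h6 : N * 1 ≤ N * P := Nat.mul_le_mul_left _ hP
  have h7 : a * (a + 2) * ((a + 1) ^ 2 + 1) = a * (a * (a + 2)) + a * (a + 2) * (a ^ 2 + a + 2) := by ring
  have h8 : 0 < a * (a + 2) * (a ^ 2 + a + 2) := by positivity
  omega

end Cfsg.Agent.H289.Eight.Num
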