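import Cfsg.Agent.H289.Eight.LinN
import Cfsg.Agent.H289.Eight.Num

/-!
# `PSL_n(q)`, `n ≥ 4`, has at least eight character degrees: conclusion (helper289, S4899)
-/

set_option autoImplicit false
set_option linter.unusedSectionVars false

open Cfsg Matrix Module

namespace Cfsg.Agent.H289.Eight

open Cfsg.Agent.H53.HC Cfsg.Agent.Characters
open Cfsg.Agent.H113.PSL.Pass Cfsg.Agent.H113.PSL.Degrees Cfsg.Agent.H113.PSL.Facts Cfsg.Agent.H113.PSL.Main
  Cfsg.Agent.H113.PSL.Three Cfsg.Agent.H113.PSL.Para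
open Cfsg.Agent.H664.Eight (Eight)

universe u

variable {F : Type u} [Field F] [Fintype F]

local notation "𝔮" => Fintype.card F

/-- the Steinberg character -/
theorem exS {p : ℕ} [Fact p.Prime] [CharP F p] {n : ℕ} (hn : 2 ≤ n) :
    ∃ d ∈ charDegrees (ProjectiveSpecialLinearGroup (Fin n) F),
      d.factorization p = n * (n - 1) / 2 * (𝔮).factorization p := by
  have hfin : Finite (ProjectiveSpecialLinearGroup (Fin n) F) :=
    Finite.of_surjective _ (QuotientGroup.mk'_surjective _)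
  have hp : p.Prime := Fact.out
  obtain ⟨k, -, hk⟩ := FiniteField.card F p
  have hpq : p ∣ 𝔮 := by rw [hk]; exact dvd_pow_self p k.ne_zero
  have hq := one_lt_q (F := F)
  obtain ⟨χ, hχ, h⟩ := Cfsg.Agent.S2544.result (F := F) p n hn
  obtain ⟨P⟩ : Nonempty (Sylow p (ProjectiveSpecialLinearGroup (Fin n) F)) := inferInstance
  refine ⟨Nat.card P, ⟨⟨χ, hχ⟩, H670.PSing.charDegree_eq_of (h P).1⟩, ?_⟩
  rw [P.card_eq_multiplicity, hp.factorization_pow, Finsupp.single_eq_same]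
  have h1 := H277.ClsPsl.card_psl (F := F) rfl hn
  refine val_eq (q := 𝔮) (s := Nat.gcd n (𝔮 - 1)) (m := ∏ i ∈ Finset.range (n - 1), (𝔮 ^ (i + 2) - 1)) (by omega) ?_ ?_ ?_
  · intro h2
    exact not_dvd_pow_sub (i := 1) hp hpq (by omega) le_rfl (by rw [pow_one]; exact h2.trans (Nat.gcd_dvd_right _ _))
  · intro h2
    obtain ⟨i, -, hi⟩ := (Prime.dvd_finsetProd_iff hp.prime _).1 h2
    exact not_dvd_pow_sub hp hpq (by omega) (by omega) hi
  · rw [← h1, mul_comm]

/-- the eight degrees are different -/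
theorem nodup {p q m A B C D T X S tA tB tC tD tX : ℕ} (hp : p.Prime) (hq : 2 ≤ q) (hpq : p ∣ q)
    (ht : ∀ {t : ℕ}, t ∣ Nat.gcd (m + 4) (q - 1) → ¬ p ∣ t ∧ 0 < t ∧ t ≤ q - 1)
    (htA : tA ∣ Nat.gcd (m + 4) (q - 1)) (htB : tB ∣ Nat.gcd (m + 4) (q - 1)) (htC : tC ∣ Nat.gcd (m + 4) (q - 1))
    (htD : tD ∣ Nat.gcd (m + 4) (q - 1)) (htX : tX ∣ Nat.gcd (m + 4) (q - 1))
    (hA : A * tA = ∏ i ∈ Finset.range (m + 3), (q ^ (i + 1) - 1))
    (hB : B * tB * (q - 1) = (q ^ (m + 4) - 1) * ∏ i ∈ Finset.range (m + 2), (q ^ (i + 1) - 1))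
    (hC : C * tC * ((q ^ 2 - 1) * (q - 1)) =
      (q ^ (m + 4) - 1) * (q ^ (m + 3) - 1) * ∏ i ∈ Finset.range (m + 1), (q ^ (i + 1) - 1))
    (hD : D * tD * ((q ^ 2 - 1) * (q - 1)) =
      (q ^ (m + 4) - 1) * (q ^ (m + 3) - 1) * ((∏ i ∈ Finset.range (m + 1), (q ^ (i + 1) - 1)) * q))
    (hT : T * (q - 1) = q * (q ^ (m + 3) - 1))
    (hX : X * tX * ((q ^ 2 - 1) * (q - 1)) = q ^ 2 * ((q ^ (m + 4) - 1) * (q ^ (m + 1) - 1)))
    (hS : 6 * q.factorization p ≤ S.factorization p) : [1, A, B, C, T, D, X, S].Nodup := by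
  have he : 0 < q.factorization p := hp.factorization_pos_of_dvd (by omega) hpq
  have nd : ∀ {i : ℕ}, 1 ≤ i → ¬ p ∣ q ^ i - 1 := fun hi => not_dvd_pow_sub hp hpq (by omega) hi
  have nd1 : ¬ p ∣ q - 1 := by have := nd (i := 1) le_rfl; rwa [pow_one] at this
  have ndP : ∀ m : ℕ, ¬ p ∣ ∏ i ∈ Finset.range m, (q ^ (i + 1) - 1) := fun m => not_dvd_prod hp hpq (by omega)
  have posP : ∀ m : ℕ, 0 < ∏ i ∈ Finset.range m, (q ^ (i + 1) - 1) := fun m => Finset.prod_pos fun i _ => by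
    have := Nat.one_lt_pow (show i + 1 ≠ 0 by omega) (show 1 < q by omega)
    omega
  have P3 : (∏ i ∈ Finset.range (m + 3), (q ^ (i + 1) - 1)) =
      (∏ i ∈ Finset.range (m + 2), (q ^ (i + 1) - 1)) * (q ^ (m + 3) - 1) := Finset.prod_range_succ _ _
  have P2 : (∏ i ∈ Finset.range (m + 2), (q ^ (i + 1) - 1)) =
      (∏ i ∈ Finset.range (m + 1), (q ^ (i + 1) - 1)) * (q ^ (m + 2) - 1) := Finset.prod_range_succ _ _
  have hN : q ^ 4 - 1 ≤ q ^ (m + 4) - 1 := Nat.sub_le_sub_right (Nat.pow_le_pow_right (by omega) (by omega)) 1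
  have hN0 : 0 < q ^ (m + 4) - 1 := by
    have := Nat.one_lt_pow (show m + 4 ≠ 0 by omega) (show 1 < q by omega)
    omega
  have hN' : q ^ 2 - 1 ≤ q ^ (m + 3) - 1 := Num.sq_sub_le (by omega) (by omega)
  have hN0' : 0 < q ^ (m + 3) - 1 := by
    have := Nat.one_lt_pow (show m + 3 ≠ 0 by omega) (show 1 < q by omega)
    omega
  obtain ⟨nA, pA, lA⟩ := ht htA
  obtain ⟨nB, pB, lB⟩ := ht htB
  obtain ⟨nC, pC, lC⟩ := ht htC
  obtain ⟨nD, pD, lD⟩ := ht htD
  obtain ⟨nX, pX, lX⟩ := ht htX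
  have ndd : ¬ p ∣ (q ^ 2 - 1) * (q - 1) := not_dvd_mul hp (nd (by norm_num)) nd1
  have ndN : ¬ p ∣ (q ^ (m + 4) - 1) * (q ^ (m + 3) - 1) := not_dvd_mul hp (nd (by omega)) (nd (by omega))
  have vA : A.factorization p = 0 * q.factorization p :=
    val_eq (by omega) nA (ndP (m + 3)) (by rw [pow_zero, one_mul]; exact hA)
  have vB : B.factorization p = 0 * q.factorization p :=
    val_eq (by omega) (not_dvd_mul hp nB nd1) (not_dvd_mul hp (nd (i := m + 4) (by omega)) (ndP (m + 2)))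
      (by rw [pow_zero, one_mul, ← mul_assoc]; exact hB)
  have vC : C.factorization p = 0 * q.factorization p :=
    val_eq (by omega) (not_dvd_mul hp nC ndd) (not_dvd_mul hp ndN (ndP (m + 1)))
      (by rw [pow_zero, one_mul, ← mul_assoc]; exact hC)
  have vD : D.factorization p = 1 * q.factorization p :=
    val_eq (by omega) (not_dvd_mul hp nD ndd) (not_dvd_mul hp ndN (ndP (m + 1)))
      (by rw [pow_one, ← mul_assoc, hD]; ring)
  have vT : T.factorization p = 1 * q.factorization p :=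
    val_eq (by omega) nd1 (nd (i := m + 3) (by omega)) (by rw [pow_one]; exact hT)
  have vX : X.factorization p = 2 * q.factorization p :=
    val_eq (by omega) (not_dvd_mul hp nX ndd) (not_dvd_mul hp (nd (i := m + 4) (by omega)) (nd (i := m + 1) (by omega)))
      (by rw [← mul_assoc]; exact hX)
  have v1 : (1 : ℕ).factorization p = 0 := by simp
  have hv : ∀ {x y : ℕ}, x.factorization p ≠ y.factorization p → x ≠ y := fun h h' => h (by rw [h'])
  have q1 : 1 ≠ A := by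
    intro h
    rw [← h] at hA
    exact Num.one_a (m := m + 3) hq (by omega) (posP (m + 2)) lA (by rw [hA, P3])
  have q2 : 1 ≠ B := by
    intro h
    rw [← h] at hB
    exact Num.one_b hq hN (posP (m + 2)) lB hB
  have q3 : 1 ≠ C := by
    intro h
    rw [← h] at hC
    exact Num.one_c hq hN hN' (posP (m + 1)) lC hC
  have q4 : A ≠ B := by
    intro h
    rw [← h] at hB
    exact Num.ab (m := m + 3) hq (by omega) (posP (m + 2)) pA lA (by rw [hA, P3]) hB
  have q5 : A ≠ C := by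
    intro h
    rw [← h] at hC
    exact Num.ac (m := m + 2) hq (by omega) (posP (m + 1)) pA lA pC lC (by rw [hA, P3, P2]) hC
  have q6 : B ≠ C := by
    intro h
    rw [← h] at hC
    exact Num.bc (m := m + 2) hq (by omega) (posP (m + 1)) hN0 pB lB (by rw [hB, P2]) hC
  have q7 : T ≠ D := by
    intro h
    rw [← h] at hD
    exact Num.tc hq hN hN0' (posP (m + 1)) lD hT hD
  simp only [List.nodup_cons, List.mem_cons, List.not_mem_nil, or_false, not_or, List.nodup_nil, and_true,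
    not_false_eq_true]
  exact ⟨⟨q1, q2, q3, hv (by omega), hv (by omega), hv (by omega), hv (by omega)⟩,
    ⟨q4, q5, hv (by omega), hv (by omega), hv (by omega), hv (by omega)⟩,
    ⟨q6, hv (by omega), hv (by omega), hv (by omega), hv (by omega)⟩,
    ⟨hv (by omega), hv (by omega), hv (by omega), hv (by omega)⟩, ⟨q7, hv (by omega), hv (by omega)⟩,
    ⟨hv (by omega), hv (by omega)⟩, hv (by omega)⟩

/-- **`PSL_n(q)`, `n ≥ 4`, has at least eight character degrees.** -/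
theorem eight_ln {n : ℕ} (hn : 4 ≤ n) : Eight (ProjectiveSpecialLinearGroup (Fin n) F) := by
  classical
  have hfin : Finite (ProjectiveSpecialLinearGroup (Fin n) F) :=
    Finite.of_surjective _ (QuotientGroup.mk'_surjective _)
  obtain ⟨p, hchar⟩ := CharP.exists F
  have hp : p.Prime := CharP.char_is_prime F p
  have hpF : Fact p.Prime := ⟨hp⟩
  obtain ⟨k, -, hk⟩ := FiniteField.card F p
  have hpq : p ∣ 𝔮 := by rw [hk]; exact dvd_pow_self p k.ne_zero
  have hq := one_lt_q (F := F)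
  -- the characters
  obtain ⟨S, hS, vS⟩ := exS (F := F) (p := p) (n := n) (by omega)
  obtain ⟨φT, hT⟩ := t3 (F := F) (n := n) (by omega)
  obtain ⟨φX, tX, htX, hX⟩ := exX (F := F) hn
  obtain ⟨φA, tA, htA, hA⟩ := exists_cusp (F := F) (n := n) (by omega) (hasCusp F n (by omega))
  obtain ⟨m, rfl⟩ : ∃ m, n = m + 4 := ⟨n - 4, by omega⟩
  obtain ⟨φB, tB, htB, hB⟩ := exists_hyper (F := F) (m := m + 3) (by omega) (hasCusp F (m + 3) (by omega))
  obtain ⟨φC, tC, htC, hC⟩ := exC (F := F) hn (Core.isIrr_one (G := GL (Fin 2) F)) (d := 1) (by simp) (fun c => rfl)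
    (fun Ψ hΨ _ => not_isCusp_one hΨ)
  obtain ⟨φD, tD, htD, hD⟩ := exC (F := F) hn (isIrr_st (F := F) 1) (d := 𝔮) (st_one _) (fun c => by
      rw [st_scalar, st_one]; simp) (fun Ψ _ hd h => by
      rw [h, st_one] at hd
      have : 𝔮 = 𝔮 - 1 := by exact_mod_cast hd
      omega)
  have e1 : m + 4 - 1 = m + 3 := by omega
  have e2 : m + 4 - 3 = m + 1 := by omega
  have e3 : m + 3 - 1 = m + 2 := by omega
  rw [e1] at hA hT
  rw [e1, e2] at hC hD
  rw [e2] at hX
  rw [e3] at hB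
  rw [mul_one] at hC
  have hT' : charDegree (φT : ProjectiveSpecialLinearGroup (Fin (m + 4)) F → ℂ) * (𝔮 - 1) = 𝔮 * (𝔮 ^ (m + 3) - 1) := by
    rw [hT, mul_assoc, geom]
  have hexp : 6 ≤ (m + 4) * (m + 4 - 1) / 2 := by
    rw [e1, Nat.le_div_iff_mul_le (by norm_num)]
    nlinarith
  have vS' : 6 * (𝔮).factorization p ≤ S.factorization p := by
    rw [vS]
    exact Nat.mul_le_mul_right _ hexp
  refine H664.Eight.eight_of_list _ (nodup hp hq hpq (fun {t} ht => ?_) htA htB htC htD htX hA hB hC hD hT' hX vS')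
    (by simp) ?_
  · have h1 := ht.trans (Nat.gcd_dvd_right _ _)
    refine ⟨fun h => ?_, Nat.pos_of_dvd_of_pos h1 (by omega), Nat.le_of_dvd (by omega) h1⟩
    exact not_dvd_pow_sub (i := 1) hp hpq (by omega) le_rfl (by rw [pow_one]; exact h.trans h1)
  · intro d hd
    simp only [List.mem_cons, List.not_mem_nil, or_false] at hd
    rcases hd with rfl | rfl | rfl | rfl | rfl | rfl | rfl | rfl
    · exact H664.Eight.one_mem
    · exact ⟨φA, rfl⟩
    · exact ⟨φB, rfl⟩
    · exact ⟨φC, rfl⟩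
    · exact ⟨φT, rfl⟩
    · exact ⟨φD, rfl⟩
    · exact ⟨φX, rfl⟩
    · exact hS

end Cfsg.Agent.H289.Eight
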