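import Cfsg.Agent.H289.Eight.Pair
import Cfsg.Agent.H113.PSL.Main
import Cfsg.Agent.H664.Eight.Base
import Cfsg.Agent.H277.ClsPsl
import Cfsg.Agent.S2544

/-!
# `PSL_n(q)`, `n ≥ 4`, has at least eight character degrees (helper289, S4899)

* `exX` : the second constituent of the permutation character on the lines;
* `exA`, `exB`, `exC` : Harish-Chandra induction of the cuspidal characters of `GL_n`, `GL_{n-1}`, `GL_{n-2}`;
* `eight_ln`.
-/

set_option autoImplicit false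
set_option linter.unusedSectionVars false
set_option linter.style.haveILetI false

open Cfsg Matrix Module

namespace Cfsg.Agent.H289.Eight

open Cfsg.Agent.H53.HC Cfsg.Agent.Characters Cfsg.Agent.H464.PermIrr
open Cfsg.Agent.H113.PSL.Pass Cfsg.Agent.H113.PSL.Degrees Cfsg.Agent.H113.PSL.Facts Cfsg.Agent.H113.PSL.Main
  Cfsg.Agent.H113.PSL.Three Cfsg.Agent.H113.PSL.Para

universe u

variable {F : Type u} [Field F] [Fintype F]

local notation "𝔮" => Fintype.card F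

/-- the number of points -/
theorem card_one {n : ℕ} (hn : 1 ≤ n) :
    Nat.card {W : Submodule F (Fin n → F) // finrank F W = 1} * (𝔮 - 1) = 𝔮 ^ n - 1 := by
  have h := H950.card_subspaces_eq (F := F) (V := Fin n → F) (n := n) (k := 1) (q := 𝔮) (by rw [finrank_fin_fun]) hn rfl
  simpa using h

/-- the number of lines -/
theorem card_two {n : ℕ} (hn : 2 ≤ n) :
    Nat.card {W : Submodule F (Fin n → F) // finrank F W = 2} * ((𝔮 ^ 2 - 1) * (𝔮 - 1)) =
      (𝔮 ^ n - 1) * (𝔮 ^ (n - 1) - 1) := by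
  have h := H950.card_subspaces_eq (F := F) (V := Fin n → F) (n := n) (k := 2) (q := 𝔮) (by rw [finrank_fin_fun]) hn rfl
  simpa [Fin.prod_univ_two] using h

/-- the difference -/
theorem card_sub {n : ℕ} (hn : 4 ≤ n) :
    Nat.card {W : Submodule F (Fin n → F) // finrank F W = 1} <
      Nat.card {W : Submodule F (Fin n → F) // finrank F W = 2} ∧
    (Nat.card {W : Submodule F (Fin n → F) // finrank F W = 2} -
      Nat.card {W : Submodule F (Fin n → F) // finrank F W = 1}) * ((𝔮 ^ 2 - 1) * (𝔮 - 1)) =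
      𝔮 ^ 2 * ((𝔮 ^ n - 1) * (𝔮 ^ (n - 3) - 1)) := by
  have h1 := card_one (F := F) (n := n) (by omega)
  have h2 := card_two (F := F) (n := n) (by omega)
  set N1 := Nat.card {W : Submodule F (Fin n → F) // finrank F W = 1}
  set N2 := Nat.card {W : Submodule F (Fin n → F) // finrank F W = 2}
  have hq := one_lt_q (F := F)
  obtain ⟨m, rfl⟩ : ∃ m, n = m + 4 := ⟨n - 4, by omega⟩
  have e1 : m + 4 - 1 = m + 3 := by omega
  have e3 : m + 4 - 3 = m + 1 := by omega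
  rw [e1] at h2
  rw [e3]
  have hw : 1 < 𝔮 ^ (m + 1) := Nat.one_lt_pow (by omega) hq
  obtain ⟨w, hw'⟩ : ∃ w, 𝔮 ^ (m + 1) = w + 1 := ⟨𝔮 ^ (m + 1) - 1, by omega⟩
  have hw0 : 0 < w := by omega
  obtain ⟨a, ha⟩ : ∃ a, 𝔮 = a + 1 := ⟨𝔮 - 1, by omega⟩
  have ha0 : 0 < a := by omega
  have e4 : 𝔮 ^ (m + 3) = 𝔮 ^ 2 * (w + 1) := by rw [← hw', ← pow_add]; congr 1; omega
  obtain ⟨y, hy⟩ : ∃ y, 𝔮 ^ (m + 4) = y + 1 := ⟨𝔮 ^ (m + 4) - 1, by
    have := Nat.one_le_pow (m + 4) 𝔮 (by omega); omega⟩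
  have hy0 : 0 < y := by
    have := Nat.one_lt_pow (show m + 4 ≠ 0 by omega) hq
    omega
  rw [hw', Nat.add_sub_cancel, hy, Nat.add_sub_cancel]
  rw [hy, Nat.add_sub_cancel, e4] at h2
  rw [hy, Nat.add_sub_cancel] at h1
  rw [ha] at h1 h2 ⊢
  rw [Nat.add_sub_cancel] at h1 h2 ⊢
  have s1 : (a + 1) ^ 2 - 1 = a * (a + 2) := by
    have : (a + 1) ^ 2 = a * (a + 2) + 1 := by ring
    omega
  have s2 : (a + 1) ^ 2 * (w + 1) - 1 = a * (a + 2) + (a + 1) ^ 2 * w := by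
    have : (a + 1) ^ 2 * (w + 1) = a * (a + 2) + (a + 1) ^ 2 * w + 1 := by ring
    omega
  rw [s1, s2] at h2
  rw [s1]
  have h3 : N2 * (a * (a + 2) * a) = N1 * (a * (a + 2) * a) + (a + 1) ^ 2 * (y * w) := by
    rw [h2, ← h1]; ring
  have hpos : 0 < a * (a + 2) * a := by positivity
  refine ⟨?_, ?_⟩
  · by_contra hcon
    push Not at hcon
    have h4 := Nat.mul_le_mul_right (a * (a + 2) * a) hcon
    have h5 : 0 < (a + 1) ^ 2 * (y * w) := by positivity
    omega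
  · rw [Nat.sub_mul, h3]
    omega

/-- `x s = q^k m` with `s`, `m` prime to `p` -/
theorem val_eq {p q k x s m : ℕ} (hq : q ≠ 0) (hs : ¬ p ∣ s) (hm : ¬ p ∣ m) (h : x * s = q ^ k * m) :
    x.factorization p = k * q.factorization p := by
  have hs0 : s ≠ 0 := by rintro rfl; exact hs (dvd_zero _)
  have hm0 : m ≠ 0 := by rintro rfl; exact hm (dvd_zero _)
  have hx0 : x ≠ 0 := by
    rintro rfl
    rw [zero_mul] at h
    exact (mul_ne_zero (pow_ne_zero k hq) hm0) h.symm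
  have h1 := congrArg (fun y => y.factorization p) h
  simp only [Nat.factorization_mul hx0 hs0, Nat.factorization_mul (pow_ne_zero k hq) hm0, Nat.factorization_pow,
    Finsupp.add_apply, Finsupp.smul_apply, smul_eq_mul, Nat.factorization_eq_zero_of_not_dvd hs,
    Nat.factorization_eq_zero_of_not_dvd hm, add_zero] at h1
  exact h1

theorem not_dvd_pow_sub {p q i : ℕ} (hp : p.Prime) (hpq : p ∣ q) (hq : 0 < q) (hi : 1 ≤ i) : ¬ p ∣ q ^ i - 1 := by
  intro h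
  have h1 : p ∣ q ^ i := dvd_pow hpq (by omega)
  have h2 : p ∣ 1 := by
    have := Nat.dvd_sub h1 h
    rwa [Nat.sub_sub_self (Nat.one_le_pow _ _ hq)] at this
  exact hp.one_lt.ne' (Nat.dvd_one.1 h2)

theorem not_dvd_mul {p a b : ℕ} (hp : p.Prime) (ha : ¬ p ∣ a) (hb : ¬ p ∣ b) : ¬ p ∣ a * b := fun h =>
  (hp.dvd_mul.1 h).elim ha hb

theorem not_dvd_prod {p q m : ℕ} (hp : p.Prime) (hpq : p ∣ q) (hq : 0 < q) :
    ¬ p ∣ ∏ i ∈ Finset.range m, (q ^ (i + 1) - 1) := by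
  intro h
  obtain ⟨i, -, hi⟩ := (Prime.dvd_finsetProd_iff hp.prime _).1 h
  exact not_dvd_pow_sub hp hpq hq (by omega) hi

/-- a homomorphism version of the passage to `PSL` -/
theorem exX {n : ℕ} (hn : 4 ≤ n) : ∃ (φ : IrrCharacter (ProjectiveSpecialLinearGroup (Fin n) F)) (t : ℕ),
    t ∣ Nat.gcd n (𝔮 - 1) ∧
      charDegree (φ : ProjectiveSpecialLinearGroup (Fin n) F → ℂ) * t * ((𝔮 ^ 2 - 1) * (𝔮 - 1)) =
        𝔮 ^ 2 * ((𝔮 ^ n - 1) * (𝔮 ^ (n - 3) - 1)) := by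
  obtain ⟨hlt, hsub⟩ := card_sub (F := F) hn
  have hirr := isIrr_two (K := F) (V := Fin n → F) (by rw [finrank_fin_fun]; exact hn) hlt
  set ψ : ((Fin n → F) ≃ₗ[F] (Fin n → F)) → ℂ := pc _ (Gr F (Fin n → F) 2) - pc _ (Gr F (Fin n → F) 1) with hψ
  let e := (glE (Pi.basisFun F (Fin n))).symm
  have h1 : IsIrrCharacter (GL (Fin n) F) (ψ ∘ e.toMonoidHom) := Core.isIrr_comp e.toMonoidHom e.surjective hirr
  have hz : ∀ c : Fˣ, (ψ ∘ e.toMonoidHom) (GeneralLinearGroup.scalar (Fin n) c) = (ψ ∘ e.toMonoidHom) 1 := by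
    intro c
    have e1 : e (GeneralLinearGroup.scalar (Fin n) c) = LinearEquiv.smulOfUnit c := by
      change (glE (Pi.basisFun F (Fin n))).symm _ = _
      rw [MulEquiv.symm_apply_eq]
      exact (glE_smul _ c _ (fun w => rfl)).symm
    have e2 : ∀ k (W : Gr F (Fin n → F) k), (LinearEquiv.smulOfUnit c : (Fin n → F) ≃ₗ[F] (Fin n → F)) • W = W := by
      intro k W
      apply Subtype.ext
      rw [coe_smul_Gr]
      apply le_antisymm
      · rintro _ ⟨w, hw, rfl⟩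
        exact W.1.smul_mem (c : F) hw
      · intro w hw
        refine ⟨(c⁻¹ : Fˣ) • w, W.1.smul_mem ((c⁻¹ : Fˣ) : F) hw, ?_⟩
        change c • ((c⁻¹ : Fˣ) • w) = w
        rw [smul_inv_smul]
    have e3 : ∀ k, pc ((Fin n → F) ≃ₗ[F] (Fin n → F)) (Gr F (Fin n → F) k) (LinearEquiv.smulOfUnit c) =
        pc ((Fin n → F) ≃ₗ[F] (Fin n → F)) (Gr F (Fin n → F) k) 1 := by
      intro k
      unfold pc
      congr 2
      have a1 : MulAction.fixedBy (Gr F (Fin n → F) k) (LinearEquiv.smulOfUnit c : (Fin n → F) ≃ₗ[F] (Fin n → F)) =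
          Set.univ := Set.eq_univ_of_forall fun W => e2 k W
      have a2 : MulAction.fixedBy (Gr F (Fin n → F) k) (1 : (Fin n → F) ≃ₗ[F] (Fin n → F)) =
          Set.univ := Set.eq_univ_of_forall fun W => one_smul _ W
      rw [a1, a2]
    change ψ (e _) = ψ (e 1)
    rw [e1, map_one, hψ, Pi.sub_apply, Pi.sub_apply, e3, e3]
  have hd : (ψ ∘ e.toMonoidHom) 1 = ((Nat.card {W : Submodule F (Fin n → F) // finrank F W = 2} -
      Nat.card {W : Submodule F (Fin n → F) // finrank F W = 1} : ℕ) : ℂ) := by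
    change ψ (e 1) = _
    rw [map_one, hψ, Pi.sub_apply, pc_one, pc_one, Nat.cast_sub hlt.le]
    rfl
  obtain ⟨φ, t, ht, hφ⟩ := exists_irr_psl (n := n) (by omega) h1 hz hd
  refine ⟨φ, t, ht, ?_⟩
  rw [hφ, hsub]

/-- the trivial character is not cuspidal -/
theorem not_isCusp_one {Ψ : GL (Fin 2) F → ℂ} (h : IsCusp Ψ) : Ψ ≠ 1 := by
  classical
  rintro rfl
  have h1 : line0 F ≠ ⊥ := by
    intro h0
    have := finrank_line0 (F := F)
    rw [h0, finrank_bot] at this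
    omega
  have h2 : line0 F ≠ ⊤ := by
    intro h0
    have := finrank_line0 (F := F)
    rw [h0, finrank_top, finrank_fin_fun] at this
    omega
  have hfin : Finite ((Fin 2 → F) ≃ₗ[F] (Fin 2 → F)) :=
    Finite.of_injective (fun g : (Fin 2 → F) ≃ₗ[F] (Fin 2 → F) => (g : (Fin 2 → F) → (Fin 2 → F)))
      DFunLike.coe_injective
  letI : Fintype (radU (line0 F)) := Fintype.ofFinite _
  have h3 := h (line0 F) h1 h2
  have h4 : ∀ u : radU (line0 F), cl (1 : GL (Fin 2) F → ℂ) (u : (Fin 2 → F) ≃ₗ[F] _) = 1 := by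
    intro u
    rw [cl_eq (Core.isIrr_isClassFunction Core.isIrr_one) (Pi.basisFun F (Fin 2))]
    rfl
  rw [Finset.sum_congr rfl fun u _ => h4 u, Finset.sum_const, nsmul_eq_mul, mul_one, Finset.card_univ] at h3
  have h5 : (Fintype.card (radU (line0 F)) : ℂ) ≠ 0 := by exact_mod_cast Fintype.card_ne_zero
  exact h5 h3

/-- Harish-Chandra induction from the parabolic subgroup of type `(n - 2, 2)` -/
theorem exC {n : ℕ} (hn : 4 ≤ n) {Φ : GL (Fin 2) F → ℂ} (hΦ : IsIrrCharacter _ Φ) {d : ℕ} (hd : Φ 1 = d)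
    (hs : ∀ c : Fˣ, Φ (GeneralLinearGroup.scalar (Fin 2) c) = Φ 1)
    (hne : ∀ Ψ : GL (Fin 2) F → ℂ, IsCusp Ψ → Ψ 1 = ((𝔮 - 1 : ℕ) : ℂ) → Ψ ≠ Φ) :
    ∃ (φ : IrrCharacter (ProjectiveSpecialLinearGroup (Fin n) F)) (t : ℕ), t ∣ Nat.gcd n (𝔮 - 1) ∧
      charDegree (φ : ProjectiveSpecialLinearGroup (Fin n) F → ℂ) * t * ((𝔮 ^ 2 - 1) * (𝔮 - 1)) =
        (𝔮 ^ n - 1) * (𝔮 ^ (n - 1) - 1) * ((∏ i ∈ Finset.range (n - 3), (𝔮 ^ (i + 1) - 1)) * d) := by
  have h2 := card_two (F := F) (n := n) (by omega)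
  by_cases h4 : n = 4
  · subst h4
    obtain ⟨Ψ, c1, c2, c3, c4⟩ := hasCusp F 2 (by norm_num)
    have hd1 : Ψ 1 = ((𝔮 - 1 : ℕ) : ℂ) := by simpa using c3
    let ρ : GL (Fin 4) F →* ((Fin 4 → F) ≃ₗ[F] (Fin 4 → F)) := (glE (Pi.basisFun F (Fin 4))).symm.toMonoidHom
    have hρ : Function.Surjective ρ := (glE (Pi.basisFun F (Fin 4))).symm.surjective
    have hfr : finrank F (Fin 4 → F) = 2 + 2 := by rw [finrank_fin_fun]
    letI : Fintype (dimSet F (Fin 4 → F) 2) := Fintype.ofFinite _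
    letI : Fintype (GL (Fin 4) F) := Fintype.ofFinite _
    have hirr := isIrr_paraChar_eq ρ hρ hfr c1 c2 hΦ (hne Ψ c2 hd1)
    have k1 := Core.isIrr_isClassFunction c1
    have k2 := Core.isIrr_isClassFunction hΦ
    have hz : ∀ c : Fˣ, paraChar ρ Ψ Φ (GeneralLinearGroup.scalar (Fin 4) c) = paraChar ρ Ψ Φ 1 := by
      intro c
      refine paraChar_scalar ρ k1 k2 hfr (c := c) (fun v => ?_) ?_
      · have e1 : ρ (GeneralLinearGroup.scalar (Fin 4) c) = LinearEquiv.smulOfUnit c := by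
          change (glE (Pi.basisFun F (Fin 4))).symm _ = _
          rw [MulEquiv.symm_apply_eq]
          exact (glE_smul _ c _ (fun w => rfl)).symm
        rw [e1]
        rfl
      · rw [c4, hs]
    obtain ⟨φ, t, ht, hφ⟩ := exists_irr_psl (n := 4) (by norm_num) hirr hz
      (d := Nat.card (dimSet F (Fin 4 → F) 2) * ((𝔮 - 1) * d)) (by
        rw [paraChar_one ρ k1 k2 hfr, hd1, hd]
        push_cast
        rfl)
    refine ⟨φ, t, ht, ?_⟩
    rw [hφ, mul_right_comm]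
    change Nat.card {W : Submodule F (Fin 4 → F) // finrank F W = 2} * ((𝔮 ^ 2 - 1) * (𝔮 - 1)) * _ = _
    rw [h2]
    simp
  · obtain ⟨φ, t, ht, hφ⟩ := exists_para (F := F) (n := n) (a := n - 2) (b := 2) (by omega) (by omega) (by omega)
      (hasCusp F (n - 2) (by omega)) hΦ hd hs
    refine ⟨φ, t, ht, ?_⟩
    have h5 := H950.card_subspaces_symm (F := F) (V := Fin n → F) (n := n) (k := 2) (by rw [finrank_fin_fun]) (by omega)
    rw [hφ, h5, mul_right_comm, h2]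
    rfl

end Cfsg.Agent.H289.Eight
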