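import Cfsg.Agent.H289.Eight.Cyc
import Cfsg.Agent.H289.Eight.SuzDeg
import Cfsg.Agent.H474.Suz13.Main

/-!
# The Suzuki group has at least eight character degrees (helper289, S4899)

The degrees `1, 364, 780, 5940, 15795`, the exceptional degree and two more nonexceptional degrees of the principal
13-block.
-/

set_option autoImplicit false
set_option maxRecDepth 100000

namespace Cfsg.Agent.H289.Eight.Suz

open Cfsg Cfsg.Agent.H664.Eight Cfsg.Agent.H289.Eight

theorem chk_suz : Cyc.chk 448345497600 13 6 [(13, 1), (11, 1), (7, 1), (5, 2), (3, 7), (2, 13)] (-5940) = true := by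
  decide +kernel

theorem mem_5940 : (-5940 : ℤ).natAbs ∈ charDegrees Cfsg.Spor.Suz := by
  rw [show (-5940 : ℤ).natAbs = 5940 by norm_num]
  exact SuzDeg.deg_5940

theorem eight_suz0 : Eight Cfsg.Spor.Suz := by
  have hs : IsSimpleGroup Cfsg.Spor.Suz := Cfsg.Agent.SporadicRecognition.SuzOrder.simple
  have : Fact (Nat.Prime 13) := ⟨by norm_num⟩
  obtain ⟨x, hx, hcx⟩ := Cfsg.Agent.H474.Suz13.suz_thirteen
  refine Cyc.eight_of_elt (p := 13) (by norm_num) hx hcx (e := 6) (t := 2) (by norm_num)
    SuzDeg.card_suz (by norm_num) (by norm_num) (by norm_num) (by norm_num)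
    (L := [(13, 1), (11, 1), (7, 1), (5, 2), (3, 7), (2, 13)]) (by
      intro pa hpa
      fin_cases hpa <;> norm_num) (by decide +kernel) (by norm_num) (by norm_num) (d0 := -5940) mem_5940
    (by decide) (by decide) chk_suz [364, 780, 15795] ?_ (by decide) (by decide)
  intro k hk
  simp only [List.mem_cons, List.not_mem_nil, or_false] at hk
  rcases hk with rfl | rfl | rfl
  · exact ⟨SuzDeg.deg_364, by norm_num⟩
  · exact ⟨SuzDeg.deg_780, by norm_num⟩
  · exact ⟨SuzDeg.deg_15795, by norm_num⟩

/-- **The Suzuki group.** -/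
theorem eight_suz {S : Type*} [Group S] (h : Cfsg.Spor.IsoSuz S) : Eight S := by
  obtain ⟨e⟩ := h
  exact eight_suz0.of_equiv e

end Cfsg.Agent.H289.Eight.Suz
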